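import Cfsg.Agent.Lib.ToddCox.Fi22O.Lv0
set_option autoImplicit false
set_option maxRecDepth 100000
namespace Cfsg.Agent.Lib.ToddCox.Fi22O

abbrev gen : ℕ → PresentedGroup Cfsg.Agent.Lib.ToddCox.Fi22_3510.rels := genP Cfsg.Agent.Lib.ToddCox.Fi22_3510.rels Cfsg.Agent.Lib.ToddCox.Fi22_3510.LT

theorem hLT : ∀ y, y < 9 → relW Cfsg.Agent.Lib.ToddCox.Fi22_3510.sg (Cfsg.Agent.Lib.ToddCox.Fi22_3510.LT.getD y 1) = [y] := by decide +kernel
theorem hLm : ∀ w ∈ L, ∀ a ∈ w, a < 9 := by decide +kernel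
theorem low {ρ : PresentedGroup Cfsg.Agent.Lib.ToddCox.Fi22_3510.rels →* Equiv.Perm (Fin 3510)}
    (hρ : ∀ r (i : Fin 3510), ((ρ (PresentedGroup.mk Cfsg.Agent.Lib.ToddCox.Fi22_3510.rels r) i : Fin 3510) : ℕ) = tabW Cfsg.Agent.Lib.ToddCox.Fi22_3510.tab (relW Cfsg.Agent.Lib.ToddCox.Fi22_3510.sg r) i) :
    64561751654400 ≤ Nat.card (sgsG (fun w => ρ (wordVal gen w)) L 0) := by
  have hel : ∀ w ∈ L, ∀ i : Fin 3510, (((fun w => ρ (wordVal gen w)) w i : Fin 3510) : ℕ) = tabW Cfsg.Agent.Lib.ToddCox.Fi22_3510.tab w i :=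
    fun w hw i => rep_word hρ hLT (hLm w hw) i
  have h5 : 1 ≤ Nat.card (sgsG (fun w => ρ (wordVal gen w)) L 37) := sgsG_pos _ _
  have c4 : ∀ k, k < 16 → chkOrbPos Cfsg.Agent.Lib.ToddCox.Fi22_3510.tab L 33 12 16 3510 (fun q => orbR (Nat.add 8249 q)) k = true :=
    defs_of_bits 16 11 1 (by norm_num) (by
      intro j hj
      interval_cases j
      · exact lv4_0
      )
  have h4 : 16 * 1 ≤ Nat.card (sgsG (fun w => ρ (wordVal gen w)) L 33) :=
    le_trans (Nat.mul_le_mul_left 16 h5) (level_bound (by norm_num) (by norm_num) hel fx4 c4)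
  norm_num at h4
  have c3 : ∀ k, k < 243 → chkOrbPos Cfsg.Agent.Lib.ToddCox.Fi22_3510.tab L 25 17 243 3510 (fun q => orbR (Nat.add 8006 q)) k = true :=
    defs_of_bits 243 11 1 (by norm_num) (by
      intro j hj
      interval_cases j
      · exact lv3_0
      )
  have h3 : 243 * 16 ≤ Nat.card (sgsG (fun w => ρ (wordVal gen w)) L 25) :=
    le_trans (Nat.mul_le_mul_left 243 h4) (level_bound (by norm_num) (by norm_num) hel fx3 c3)
  norm_num at h3
  have c2 : ∀ k, k < 1680 → chkOrbPos Cfsg.Agent.Lib.ToddCox.Fi22_3510.tab L 18 162 1680 3510 (fun q => orbR (Nat.add 6326 q)) k = true :=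
    defs_of_bits 1680 11 1 (by norm_num) (by
      intro j hj
      interval_cases j
      · exact lv2_0
      )
  have h2 : 1680 * 3888 ≤ Nat.card (sgsG (fun w => ρ (wordVal gen w)) L 18) :=
    le_trans (Nat.mul_le_mul_left 1680 h3) (level_bound (by norm_num) (by norm_num) hel fx2 c2)
  norm_num at h2
  have c1 : ∀ k, k < 2816 → chkOrbPos Cfsg.Agent.Lib.ToddCox.Fi22_3510.tab L 9 1 2816 3510 (fun q => orbR (Nat.add 3510 q)) k = true :=
    defs_of_bits 2816 11 2 (by norm_num) (by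
      intro j hj
      interval_cases j
      · exact lv1_0
      · exact lv1_1
      )
  have h1 : 2816 * 6531840 ≤ Nat.card (sgsG (fun w => ρ (wordVal gen w)) L 9) :=
    le_trans (Nat.mul_le_mul_left 2816 h2) (level_bound (by norm_num) (by norm_num) hel fx1 c1)
  norm_num at h1
  have c0 : ∀ k, k < 3510 → chkOrbPos Cfsg.Agent.Lib.ToddCox.Fi22_3510.tab L 0 0 3510 3510 (fun q => orbR (Nat.add 0 q)) k = true :=
    defs_of_bits 3510 11 2 (by norm_num) (by
      intro j hj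
      interval_cases j
      · exact lv0_0
      · exact lv0_1
      )
  have h0 : 3510 * 18393661440 ≤ Nat.card (sgsG (fun w => ρ (wordVal gen w)) L 0) :=
    le_trans (Nat.mul_le_mul_left 3510 h1) (level_bound (by norm_num) (by norm_num) hel fx0 c0)
  norm_num at h0
  exact h0
end Cfsg.Agent.Lib.ToddCox.Fi22O
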