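import Cfsg.Agent.Lib.ToddCox.Fi22O.OrbD
set_option autoImplicit false
set_option maxRecDepth 100000
namespace Cfsg.Agent.Lib.ToddCox.Fi22O
open Cfsg.Agent.Lib.ToddCox.Fi22_3510 in
theorem lv0_0 : allBits (fun k => bif Nat.blt k 3510 then chkOrbPos Cfsg.Agent.Lib.ToddCox.Fi22_3510.tab L 0 0 3510 3510 (fun q => orbR (Nat.add 0 q)) k else true) 11 0 = true := by decide +kernel
theorem lv0_1 : allBits (fun k => bif Nat.blt k 3510 then chkOrbPos Cfsg.Agent.Lib.ToddCox.Fi22_3510.tab L 0 0 3510 3510 (fun q => orbR (Nat.add 0 q)) k else true) 11 2048 = true := by decide +kernel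
theorem fx0 : ∀ w ∈ L.drop 9, tabW Cfsg.Agent.Lib.ToddCox.Fi22_3510.tab w 0 = 0 := by decide +kernel
theorem lv1_0 : allBits (fun k => bif Nat.blt k 2816 then chkOrbPos Cfsg.Agent.Lib.ToddCox.Fi22_3510.tab L 9 1 2816 3510 (fun q => orbR (Nat.add 3510 q)) k else true) 11 0 = true := by decide +kernel
theorem lv1_1 : allBits (fun k => bif Nat.blt k 2816 then chkOrbPos Cfsg.Agent.Lib.ToddCox.Fi22_3510.tab L 9 1 2816 3510 (fun q => orbR (Nat.add 3510 q)) k else true) 11 2048 = true := by decide +kernel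
theorem fx1 : ∀ w ∈ L.drop 18, tabW Cfsg.Agent.Lib.ToddCox.Fi22_3510.tab w 1 = 1 := by decide +kernel
theorem lv2_0 : allBits (fun k => bif Nat.blt k 1680 then chkOrbPos Cfsg.Agent.Lib.ToddCox.Fi22_3510.tab L 18 162 1680 3510 (fun q => orbR (Nat.add 6326 q)) k else true) 11 0 = true := by decide +kernel
theorem fx2 : ∀ w ∈ L.drop 25, tabW Cfsg.Agent.Lib.ToddCox.Fi22_3510.tab w 162 = 162 := by decide +kernel
theorem lv3_0 : allBits (fun k => bif Nat.blt k 243 then chkOrbPos Cfsg.Agent.Lib.ToddCox.Fi22_3510.tab L 25 17 243 3510 (fun q => orbR (Nat.add 8006 q)) k else true) 11 0 = true := by decide +kernel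
theorem fx3 : ∀ w ∈ L.drop 33, tabW Cfsg.Agent.Lib.ToddCox.Fi22_3510.tab w 17 = 17 := by decide +kernel
theorem lv4_0 : allBits (fun k => bif Nat.blt k 16 then chkOrbPos Cfsg.Agent.Lib.ToddCox.Fi22_3510.tab L 33 12 16 3510 (fun q => orbR (Nat.add 8249 q)) k else true) 11 0 = true := by decide +kernel
theorem fx4 : ∀ w ∈ L.drop 37, tabW Cfsg.Agent.Lib.ToddCox.Fi22_3510.tab w 12 = 12 := by decide +kernel
end Cfsg.Agent.Lib.ToddCox.Fi22O
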