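import Cfsg.Agent.Lib.ToddCox.Fi22C0.Step
import Cfsg.Agent.Lib.ToddCox.Fi22C1.Step
import Cfsg.Agent.Lib.ToddCox.Fi22C2.Step
import Cfsg.Agent.Lib.ToddCox.Fi22C3.Step
import Cfsg.Agent.Lib.ToddCox.Fi22C4.Step
import Cfsg.Agent.Lib.ToddCox.Fi22C5.Step
import Cfsg.Agent.Lib.ToddCox.Fi22C6.Step
import Cfsg.Agent.Lib.ToddCox.Fi22O.Low
import Cfsg.Agent.Lib.ToddCox.Fi22X.Cert
set_option autoImplicit false
set_option maxRecDepth 100000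
namespace Cfsg.Agent.Lib.ToddCox.Fi22O

theorem hTop : ∀ x, Cfsg.Agent.Lib.ToddCox.Fi22_3510.sg x true ∈ Cfsg.Agent.Lib.ToddCox.Fi22C0.Js := by
  intro x
  cases x <;> decide +kernel
theorem hTopLT : ∀ x, Cfsg.Agent.Lib.ToddCox.Fi22_3510.LT.getD (Cfsg.Agent.Lib.ToddCox.Fi22_3510.sg x true) 1 = FreeGroup.of x := by
  intro x
  cases x <;> decide +kernel
theorem card_bd : 0 < Nat.card (PresentedGroup Cfsg.Agent.Lib.ToddCox.Fi22_3510.rels) ∧ Nat.card (PresentedGroup Cfsg.Agent.Lib.ToddCox.Fi22_3510.rels) ≤ 64561751654400 := by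
  have h6 : 0 < Nat.card (letSub gen Cfsg.Agent.Lib.ToddCox.Fi22C6.Js) ∧ Nat.card (letSub gen Cfsg.Agent.Lib.ToddCox.Fi22C6.Js) ≤ 24 * 1 :=
    card_le_of_chain Cfsg.Agent.Lib.ToddCox.Fi22C6.le Cfsg.Agent.Lib.ToddCox.Fi22C6.step card_letSub_nil
  have h5 : 0 < Nat.card (letSub gen Cfsg.Agent.Lib.ToddCox.Fi22C5.Js) ∧ Nat.card (letSub gen Cfsg.Agent.Lib.ToddCox.Fi22C5.Js) ≤ 5 * (24 * 1) :=
    card_le_of_chain Cfsg.Agent.Lib.ToddCox.Fi22C5.le Cfsg.Agent.Lib.ToddCox.Fi22C5.step h6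
  have h4 : 0 < Nat.card (letSub gen Cfsg.Agent.Lib.ToddCox.Fi22C4.Js) ∧ Nat.card (letSub gen Cfsg.Agent.Lib.ToddCox.Fi22C4.Js) ≤ 6 * (5 * (24 * 1)) :=
    card_le_of_chain Cfsg.Agent.Lib.ToddCox.Fi22C4.le Cfsg.Agent.Lib.ToddCox.Fi22C4.step h5
  have h3 : 0 < Nat.card (letSub gen Cfsg.Agent.Lib.ToddCox.Fi22C3.Js) ∧ Nat.card (letSub gen Cfsg.Agent.Lib.ToddCox.Fi22C3.Js) ≤ 7 * (6 * (5 * (24 * 1))) :=
    card_le_of_chain Cfsg.Agent.Lib.ToddCox.Fi22C3.le Cfsg.Agent.Lib.ToddCox.Fi22C3.step h4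
  have h2 : 0 < Nat.card (letSub gen Cfsg.Agent.Lib.ToddCox.Fi22C2.Js) ∧ Nat.card (letSub gen Cfsg.Agent.Lib.ToddCox.Fi22C2.Js) ≤ 288 * (7 * (6 * (5 * (24 * 1)))) :=
    card_le_of_chain Cfsg.Agent.Lib.ToddCox.Fi22C2.le Cfsg.Agent.Lib.ToddCox.Fi22C2.step h3
  have h1 : 0 < Nat.card (letSub gen Cfsg.Agent.Lib.ToddCox.Fi22C1.Js) ∧ Nat.card (letSub gen Cfsg.Agent.Lib.ToddCox.Fi22C1.Js) ≤ 3159 * (288 * (7 * (6 * (5 * (24 * 1))))) :=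
    card_le_of_chain Cfsg.Agent.Lib.ToddCox.Fi22C1.le Cfsg.Agent.Lib.ToddCox.Fi22C1.step h2
  have h0 : 0 < Nat.card (letSub gen Cfsg.Agent.Lib.ToddCox.Fi22C0.Js) ∧ Nat.card (letSub gen Cfsg.Agent.Lib.ToddCox.Fi22C0.Js) ≤ 14080 * (3159 * (288 * (7 * (6 * (5 * (24 * 1)))))) :=
    card_le_of_chain Cfsg.Agent.Lib.ToddCox.Fi22C0.le Cfsg.Agent.Lib.ToddCox.Fi22C0.step h1
  rw [show letSub gen Cfsg.Agent.Lib.ToddCox.Fi22C0.Js = ⊤ from letSub_top hTop hTopLT, Subgroup.card_top] at h0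
  norm_num at h0
  exact h0

abbrev x : PresentedGroup Cfsg.Agent.Lib.ToddCox.Fi22_3510.rels := wordVal gen Cfsg.Agent.Lib.ToddCox.Fi22X.xw

theorem xR : ∀ w ∈ Cfsg.Agent.Lib.ToddCox.Fi22X.Rb, w = Cfsg.Agent.Lib.ToddCox.Fi22X.xw ∨ w ∈ Cfsg.Agent.Lib.ToddCox.Fi22_3510.RL.map (relW Cfsg.Agent.Lib.ToddCox.Fi22_3510.sg) ∨ freeVal Cfsg.Agent.Lib.ToddCox.Fi22_3510.LT w = 1 := by decide +kernel
theorem xHl : Cfsg.Agent.Lib.ToddCox.Fi22X.Hl = [] := rfl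
theorem hcl : Subgroup.normalClosure {x} = ⊤ :=
  normalClosure_top_of_cert gen x Cfsg.Agent.Lib.ToddCox.Fi22X.inv Cfsg.Agent.Lib.ToddCox.Fi22_3510.letters.genInv Cfsg.Agent.Lib.ToddCox.Fi22X.Eo Cfsg.Agent.Lib.ToddCox.Fi22X.W Cfsg.Agent.Lib.ToddCox.Fi22X.isH (fun y hy => invOf_lt _ hy) Cfsg.Agent.Lib.ToddCox.Fi22X.Eo_lt
    (genP_id (by decide +kernel)) Cfsg.Agent.Lib.ToddCox.Fi22X.Rb (by
      intro w hw
      rcases xR w hw with h | h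
      · rw [h]
        exact Subgroup.subset_normalClosure rfl
      · rw [Cfsg.Agent.Lib.ToddCox.Fi22_3510.letters.word h]
        exact Subgroup.one_mem _)
    Cfsg.Agent.Lib.ToddCox.Fi22X.nW Cfsg.Agent.Lib.ToddCox.Fi22X.W_ge Cfsg.Agent.Lib.ToddCox.Fi22X.sp Cfsg.Agent.Lib.ToddCox.Fi22X.words (fun y => rfl) Cfsg.Agent.Lib.ToddCox.Fi22X.defs Cfsg.Agent.Lib.ToddCox.Fi22X.covered Cfsg.Agent.Lib.ToddCox.Fi22X.cF Cfsg.Agent.Lib.ToddCox.Fi22X.cF_zero Cfsg.Agent.Lib.ToddCox.Fi22X.cF_lt Cfsg.Agent.Lib.ToddCox.Fi22X.ys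
    (letSub_top (by intro x; cases x <;> decide +kernel) hTopLT) Cfsg.Agent.Lib.ToddCox.Fi22X.links

def xpow : List ℕ := [nat_lit 0, nat_lit 1, nat_lit 2, nat_lit 3, nat_lit 4, nat_lit 5, nat_lit 7, nat_lit 8, nat_lit 0, nat_lit 1, nat_lit 2, nat_lit 3, nat_lit 4, nat_lit 5, nat_lit 7, nat_lit 8, nat_lit 0, nat_lit 1, nat_lit 2, nat_lit 3, nat_lit 4, nat_lit 5, nat_lit 7, nat_lit 8, nat_lit 0, nat_lit 1, nat_lit 2, nat_lit 3, nat_lit 4, nat_lit 5, nat_lit 7, nat_lit 8, nat_lit 0, nat_lit 1, nat_lit 2, nat_lit 3, nat_lit 4, nat_lit 5, nat_lit 7, nat_lit 8, nat_lit 0, nat_lit 1, nat_lit 2, nat_lit 3, nat_lit 4, nat_lit 5, nat_lit 7, nat_lit 8, nat_lit 0, nat_lit 1, nat_lit 2, nat_lit 3, nat_lit 4, nat_lit 5, nat_lit 7, nat_lit 8, nat_lit 0, nat_lit 1, nat_lit 2, nat_lit 3, nat_lit 4, nat_lit 5, nat_lit 7, nat_lit 8, nat_lit 0, nat_lit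 1, nat_lit 2, nat_lit 3, nat_lit 4, nat_lit 5, nat_lit 7, nat_lit 8, nat_lit 0, nat_lit 1, nat_lit 2, nat_lit 3, nat_lit 4, nat_lit 5, nat_lit 7, nat_lit 8, nat_lit 0, nat_lit 1, nat_lit 2, nat_lit 3, nat_lit 4, nat_lit 5, nat_lit 7, nat_lit 8, nat_lit 0, nat_lit 1, nat_lit 2, nat_lit 3, nat_lit 4, nat_lit 5, nat_lit 7, nat_lit 8, nat_lit 0, nat_lit 1, nat_lit 2, nat_lit 3, nat_lit 4, nat_lit 5, nat_lit 7, nat_lit 8]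
theorem xpow_eq : xpow = powW Cfsg.Agent.Lib.ToddCox.Fi22X.xw 13 := by decide +kernel
theorem xpowOK : allBelow (fun i => Nat.beq (tabW Cfsg.Agent.Lib.ToddCox.Fi22_3510.tab xpow i) i) 3510 12 = true := by decide +kernel
theorem xpowL : ∀ a ∈ xpow, a < 9 := by decide +kernel

def sizes : List ℕ := [2816, 693]
theorem hsum : ∀ d ∈ ssums sizes, (d + 1) ∣ 3510 → d = 0 ∨ d + 1 = 3510 := by decide +kernel

theorem main : IsSimpleGroup (PresentedGroup Cfsg.Agent.Lib.ToddCox.Fi22_3510.rels) ∧ Nat.card (PresentedGroup Cfsg.Agent.Lib.ToddCox.Fi22_3510.rels) = 64561751654400 := by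
  obtain ⟨ρ, hρ⟩ := Cfsg.Agent.Lib.ToddCox.Fi22_3510.rep_exists
  have hc := card_bd
  have hl := low hρ
  obtain ⟨hcard, hinj⟩ := card_and_faithful hc.1 hc.2 hl (fun w _ => ⟨_, rfl⟩)
  have hfin : Finite (PresentedGroup Cfsg.Agent.Lib.ToddCox.Fi22_3510.rels) := Nat.finite_of_card_ne_zero (by rw [hcard]; norm_num)
  have hnt : Nontrivial (PresentedGroup Cfsg.Agent.Lib.ToddCox.Fi22_3510.rels) := by
    rw [← Finite.one_lt_card_iff_nontrivial, hcard]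
    norm_num
  obtain ⟨_, hb1⟩ := block_facts (d := 12) Cfsg.Agent.Lib.ToddCox.Fi22_3510.t6 (by norm_num) Cfsg.Agent.Lib.ToddCox.Fi22_3510.bk1
  obtain ⟨_, hb2⟩ := block_facts (d := 12) Cfsg.Agent.Lib.ToddCox.Fi22_3510.t6 (by norm_num) Cfsg.Agent.Lib.ToddCox.Fi22_3510.bk2
  have hconn : BlocksConn ρ (subG Cfsg.Agent.Lib.ToddCox.Fi22_3510.rels Cfsg.Agent.Lib.ToddCox.Fi22_3510.Sl) sizes 1 := ⟨conn_of_tables hρ hb1, ⟨conn_of_tables hρ hb2, trivial⟩⟩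
  have hxp : x ^ 13 = 1 := by
    rw [← wordVal_powW, ← xpow_eq]
    apply hinj
    rw [map_one]
    ext i
    rw [rep_word hρ hLT xpowL]
    exact Nat.eq_of_beq_eq_true (allBelow_spec (by norm_num) xpowOK i i.2)
  refine ⟨simple_of_rep ρ hinj (by norm_num) (subG Cfsg.Agent.Lib.ToddCox.Fi22_3510.rels Cfsg.Agent.Lib.ToddCox.Fi22_3510.Sl) (subG_fix hρ Cfsg.Agent.Lib.ToddCox.Fi22_3510.fix0)
    (rep_trans hρ (by norm_num) Cfsg.Agent.Lib.ToddCox.Fi22_3510.reach) sizes (by norm_num [sizes]) hconn hsum x 13 1 (by norm_num) hxp (by norm_num)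
    (by rw [hcard]; norm_num) hcl, hcard⟩

end Cfsg.Agent.Lib.ToddCox.Fi22O
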